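import Mathlib
import Cfsg.Agent.Lib.Steiner.HSOdd
import Cfsg.Agent.S0414
import Cfsg.Agent.Lib.PSL2Rec.Fix2
import Cfsg.Agent.Lib.Frob.FPF
import Cfsg.Agent.Lib.Core.Cores
import Cfsg.Agent.Lib.Tech.SylowIn
import Cfsg.Agent.Lib.Sharp.Basic

/-! The automorphism group of the (100,22,0,6) graph and its simple subgroup of index 2. -/

set_option autoImplicit false

namespace CfsgLib.Steiner.HS

open Cfsg SimpleGraph Cfsg.Agent.S0428 MulAction Subgroup CfsgLib.PSL2Rec

variable {α : Type*} [DecidableEq α] {B : Set (Finset α)}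

/-- automorphisms of the set system act on the point-block graph -/
def psi (B : Set (Finset α)) : setSystemAut B →* (pointBlockGraph B ≃g pointBlockGraph B) :=
  MonoidHom.mk' (fun s => pbIso s.1 s.2) fun s t => RelIso.ext fun x => by
    rcases x with _ | a | b
    · rfl
    · rfl
    · exact congrArg (fun c => some (Sum.inr c)) (Subtype.ext
        (Finset.image_image (f := t.1) (g := s.1)).symm)

theorem psi_inj : Function.Injective (psi B) := fun s t h => Subtype.ext (Equiv.ext fun a =>
  Sum.inl.inj (Option.some.inj (DFunLike.congr_fun h (some (Sum.inl a)))))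

theorem psi_range : (psi B).range = stabilizer _ (none : Option (α ⊕ B)) := by
  refine le_antisymm (by rintro _ ⟨s, rfl⟩; rfl) fun φ hφ => ?_
  have h1 : ∀ φ : pointBlockGraph B ≃g pointBlockGraph B, φ none = none → ∀ a,
      ∃ a', φ (some (Sum.inl a)) = some (Sum.inl a') := fun φ h a => by
    have := φ.map_rel_iff.2 (adj_np a)
    rw [h] at this
    generalize φ (some (Sum.inl a)) = y at this
    rcases y with _ | a' | b
    exacts [absurd this adj_nn, ⟨a', rfl⟩, absurd this (adj_nb b)]
  have h2 : ∀ φ : pointBlockGraph B ≃g pointBlockGraph B, φ none = none → ∀ b,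
      ∃ b', φ (some (Sum.inr b)) = some (Sum.inr b') := fun φ h b => by
    have h3 := (φ.map_rel_iff (a := none)).not.2 (adj_nb b)
    have h4 := (φ.injective.ne_iff (x := none) (y := some (Sum.inr b))).2 (by simp)
    rw [h] at h3 h4
    generalize φ (some (Sum.inr b)) = y at h3 h4
    rcases y with _ | a' | b
    exacts [absurd rfl h4, absurd (adj_np a') h3, ⟨b, rfl⟩]
  have h3 : φ.symm none = none := φ.symm_apply_eq.2 hφ.symm
  choose f hf using h1 φ hφ
  choose g hg using h1 φ.symm h3
  let e : Equiv.Perm α := ⟨f, g, fun a => Sum.inl.inj (Option.some.inj (by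
      rw [← hg, ← hf, RelIso.symm_apply_apply])), fun a => Sum.inl.inj (Option.some.inj (by
      rw [← hf, ← hg, RelIso.apply_symm_apply]))⟩
  have h4 : ∀ b c : B, φ (some (Sum.inr b)) = some (Sum.inr c) → b.1.image e = c := fun b c h => by
    ext x
    obtain ⟨a, rfl⟩ := e.surjective x
    rw [e.injective.mem_finset_image, ← adj_pb, ← adj_pb, ← h, ← φ.map_rel_iff, hf]
    rfl
  have he : (fun b => b.image e) '' B = B := Set.Subset.antisymm (by
      rintro _ ⟨b, hb, rfl⟩
      obtain ⟨c, hc⟩ := h2 φ hφ ⟨b, hb⟩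
      exact Set.mem_of_eq_of_mem (h4 _ _ hc) c.2) fun c hc => by
    obtain ⟨b, hb⟩ := h2 φ.symm h3 ⟨c, hc⟩
    exact ⟨b, b.2, h4 _ _ (φ.symm_apply_eq.1 hb).symm⟩
  refine ⟨⟨e, he⟩, RelIso.ext fun x => ?_⟩
  rcases x with _ | a | b
  · exact hφ.symm
  · exact (hf a).symm
  · obtain ⟨c, hc⟩ := h2 φ hφ b
    exact (congrArg (fun c => some (Sum.inr c)) (Subtype.ext (h4 _ _ hc))).trans hc.symm

variable [Fintype α]

theorem aut_facts (hα : Fintype.card α = 22) (hB : IsSteinerSystem 3 6 B) :
    Nat.card (Option (α ⊕ B)) = 100 ∧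
      IsPretransitive (pointBlockGraph B ≃g pointBlockGraph B) (Option (α ⊕ B)) ∧
      Nat.card (stabilizer (pointBlockGraph B ≃g pointBlockGraph B) (none : Option (α ⊕ B))) = 887040 ∧
      Nat.card (pointBlockGraph B ≃g pointBlockGraph B) = 88704000 := by
  classical
  have := Fintype.ofFinite B
  have h := Cfsg.Agent.S0428.result hα hB
  have h1 := Nat.card_eq_fintype_card.trans h.card
  have h2 : IsPretransitive (pointBlockGraph B ≃g pointBlockGraph B) (Option (α ⊕ B)) :=
    ⟨fun a b => exists_iso h h a b⟩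
  have h3 : Nat.card (stabilizer (pointBlockGraph B ≃g pointBlockGraph B)
      (none : Option (α ⊕ B))) = 887040 := by
    rw [← psi_range, ← Nat.card_congr (MonoidHom.ofInjective psi_inj).toEquiv,
      (Cfsg.Agent.S0414.result hα hB).1]
  refine ⟨h1, h2, h3, ?_⟩
  rw [← (stabilizer _ (none : Option (α ⊕ B))).index_mul_card, index_stabilizer_of_transitive, h1, h3]

/-- an element of order 11 fixes at most one vertex -/
theorem fix11 (hα : Fintype.card α = 22) (hB : IsSteinerSystem 3 6 B) {s : setSystemAut B}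
    (hs : orderOf s = 11) {v : Option (α ⊕ B)} (hv : psi B s • v = v) : v = none := by
  obtain ⟨h1, h2, -⟩ := Cfsg.Agent.S0414.result hα hB
  have : IsPretransitive (setSystemAut B) α := is_one_pretransitive_iff.1
    (isMultiplyPretransitive_of_le (n := 3) (by decide) (by simp [hα]))
  have h3 : ∀ a : α, s • a ≠ a := fun a ha => by
    have h3 := (stabilizer (setSystemAut B) a).index_mul_card
    have h4 := (stabilizer (setSystemAut B) a).orderOf_dvd_natCard ha
    rw [index_stabilizer_of_transitive, h1, Nat.card_eq_fintype_card, hα] at h3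
    rw [hs] at h4
    omega
  rcases v with _ | a | b
  · rfl
  · exact absurd (Sum.inl.inj (Option.some.inj hv)) (h3 a)
  have h4 : b.1.image s.1 = b := congrArg Subtype.val (Sum.inr.inj (Option.some.inj hv))
  have := Fact.mk (show Nat.Prime 11 by decide)
  have h5 := card_modEq_of_mapsTo (p := 11) (k := 1) (z := s) (by
    rw [pow_one, ← hs, pow_orderOf_eq_one]) (b.1 : Set α) fun a ha =>
      h4.le (Finset.mem_image_of_mem _ ha)
  have : IsEmpty {a : α // a ∈ (b.1 : Set α) ∧ s • a = a} := ⟨fun a => h3 a a.2.2⟩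
  rw [@Nat.card_of_isEmpty _ this, Nat.card_coe_set_eq, Set.ncard_coe_finset, hB.1 b b.2] at h5
  exact absurd h5 (by decide)

theorem simple_of_fix {A V : Type*} [Group A] [Finite A] [MulAction A V] [Finite V]
    (hV : Nat.card V = 100) (hA : Nat.card A = 44352000) (v : V) [IsSimpleGroup (stabilizer A v)]
    (hS : Nat.card (stabilizer A v) = 443520)
    (hx : ∀ x ∈ stabilizer A v, orderOf x = 11 → ∀ w, x • w = w → w = v) : IsSimpleGroup A := by
  have := Fact.mk (show Nat.Prime 11 by decide)
  have := Fact.mk Nat.prime_five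
  have h0 : (stabilizer A v).index = 100 := by
    have := (stabilizer A v).index_mul_card
    rw [hS] at this
    omega
  have h1 : ∀ w, ∃ g : A, g • v = w := fun w => mem_orbit_iff.1 ((Set.eq_of_subset_of_ncard_le
    (Set.subset_univ _) (by rw [Set.ncard_univ, hV, ← index_stabilizer, h0])).ge (Set.mem_univ w))
  obtain ⟨x, hxS, h2⟩ := exists_mem_orderOf_eq_prime (p := 11) (stabilizer A v) (by decide)
    (by rw [hS]; decide)
  have : Nontrivial A := Finite.one_lt_card_iff_nontrivial.1 (by omega)
  have h3 : ∀ K : Subgroup A, K.Normal → K ⊓ stabilizer A v = ⊥ → Nat.card K % 11 = 1 :=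
    fun K hK h => by
      have := Frob.card_modEq_one_of_fpf (K := K) (H := zpowers x)
        (by rw [normalizer_eq_top]; exact le_top) fun y hy hy1 => eq_bot_iff.2 fun k hk =>
          h.le ⟨hk.1, hx y (zpowers_le.2 hxS hy) (orderOf_eq_of_prime_card
            ((Nat.card_zpowers x).trans h2) hy hy1) _ (by
              rw [← mul_smul, ← mem_centralizer_singleton_iff.1 hk.2, mul_smul,
                show y • v = v from zpowers_le.2 hxS hy])⟩
      rwa [Nat.card_zpowers, h2] at this
  refine ⟨fun N hN => ?_⟩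
  rcases (hN.subgroupOf (stabilizer A v)).eq_bot_or_eq_top with h | h
  · rw [subgroupOf_eq_bot, disjoint_iff] at h
    have := Fintype.ofFinite V
    have h4 := Sharp.card_dvd_of_free (H := N) (Finset.univ : Finset V) (by simp) fun n w _ hn => by
      obtain ⟨g, rfl⟩ := h1 w
      have : g⁻¹ * n * g = 1 := h.le ⟨hN.conj_mem' _ n.2 g, show _ • v = v by
        rw [mul_smul, mul_smul, inv_smul_eq_iff]; exact hn⟩
      exact Subtype.ext (by simpa [mul_assoc] using congrArg (fun z => g * z * g⁻¹) this)
    rw [Finset.card_univ, ← Nat.card_eq_fintype_card, hV] at h4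
    have h5 := h3 N hN h
    obtain h6 | h6 : Nat.card N = 1 ∨ Nat.card N = 100 := by
      have := Nat.le_of_dvd (by decide) h4
      generalize Nat.card N = n at *
      revert h4 h5
      interval_cases n <;> decide
    · exact Or.inl (eq_bot_of_card_eq _ h6)
    obtain ⟨P⟩ : Nonempty (Sylow 5 N) := inferInstance
    have h7 : Nat.card P = 25 := by rw [P.card_eq_multiplicity, h6]; decide +kernel
    have h8 : Nat.card (Sylow 5 N) = 1 := by
      have h8 := P.card_dvd_index
      have h9 := (P : Subgroup N).index_mul_card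
      have h10 := card_sylow_modEq_one 5 N
      rw [show (P : Subgroup N).index = 4 by rw [h7] at h9; omega] at h8
      have := Nat.le_of_dvd (by decide) h8
      unfold Nat.ModEq at h10
      omega
    have := (Nat.card_eq_one_iff_unique.1 h8).1
    have := P.characteristic_of_subsingleton
    have h9 := h3 ((P : Subgroup N).map N.subtype) inferInstance
      (eq_bot_iff.2 ((inf_le_inf_right _ (map_subtype_le _)).trans h.le))
    rw [card_map_of_injective N.subtype_injective, h7] at h9
    omega
  rw [subgroupOf_eq_top] at h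
  have h4 := card_modEq_of_mapsTo (p := 11) (k := 1) (z := x) (by
    rw [pow_one, ← h2, pow_orderOf_eq_one]) (orbit N v) fun a ha => mem_orbit_iff.2 (by
      obtain ⟨n, rfl⟩ := mem_orbit_iff.1 ha
      exact ⟨⟨x, h hxS⟩ * n, mul_smul _ _ _⟩)
  rw [show Nat.card {a : V // a ∈ orbit N v ∧ x • a = a} = 1 from Nat.card_eq_one_iff_exists.2
    ⟨⟨v, mem_orbit_self v, hxS⟩, fun a => Subtype.ext (hx x hxS h2 _ a.2.2)⟩, Nat.card_coe_set_eq,
    ← index_stabilizer] at h4
  change (stabilizer A v).relIndex N % 11 = 1 at h4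
  have h5 := relIndex_mul_index h
  obtain h6 | h6 : (stabilizer A v).relIndex N = 1 ∨ (stabilizer A v).relIndex N = 100 := by
    have h6 := Dvd.intro _ (h5.trans h0)
    have := Nat.le_of_dvd (by decide) h6
    generalize (stabilizer A v).relIndex N = n at *
    revert h4 h6
    interval_cases n <;> decide
  · have : Nontrivial V := Finite.one_lt_card_iff_nontrivial.1 (by omega)
    obtain ⟨w, hw⟩ := exists_ne v
    obtain ⟨g, rfl⟩ := h1 w
    refine absurd (hx x hxS h2 _ ?_) hw
    rw [← inv_smul_eq_iff, smul_smul, smul_smul]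
    exact relIndex_eq_one.1 h6 (hN.conj_mem' _ (h hxS) g)
  · exact Or.inr (index_eq_one.1 (by rw [h6, h0] at h5; omega))

theorem exists_HS (hα : Fintype.card α = 22) (hB : IsSteinerSystem 3 6 B) :
    ∃ H : Subgroup (pointBlockGraph B ≃g pointBlockGraph B), IsHS H := by
  classical
  have := Fintype.ofFinite B
  obtain ⟨h1, -, h2, h3⟩ := aut_facts hα hB
  obtain ⟨-, -, M, -, h4, h5⟩ := Cfsg.Agent.S0414.result hα hB
  obtain ⟨φ, h6, h7'⟩ := exists_odd (Cfsg.Agent.S0428.result hα hB) none
  have : Finite (pointBlockGraph B ≃g pointBlockGraph B) := Nat.finite_of_card_ne_zero (by omega)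
  obtain ⟨f, h7⟩ : ∃ f : (pointBlockGraph B ≃g pointBlockGraph B) →* ℤˣ, f φ = -1 :=
    ⟨Equiv.Perm.sign.comp (toPermHom _ (Option (α ⊕ B))), h7'⟩
  have h8 : f.ker.index = 2 := by
    rw [index_ker, MonoidHom.range_eq_top.2 fun u => (Int.units_eq_one_or u).elim
      (fun e => ⟨1, e ▸ map_one f⟩) fun e => ⟨φ, h7.trans e.symm⟩, card_top, Nat.card_eq_fintype_card]
    rfl
  have h9 : M.map (psi B) ≤ f.ker ⊓ stabilizer _ (none : Option (α ⊕ B)) := by
    refine le_inf ?_ ((map_le_range _ _).trans psi_range.le)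
    rcases (f.comp ((psi B).comp M.subtype)).normal_ker.eq_bot_or_eq_top with h | h
    · have := Nat.card_le_card_of_injective _ ((MonoidHom.ker_eq_bot_iff _).1 h)
      rw [h5, Nat.card_eq_fintype_card] at this
      exact absurd this (by decide)
    · rintro _ ⟨m, hm, rfl⟩
      exact h.ge (mem_top (⟨m, hm⟩ : M))
  have h10 := Tech.card_mul_relIndex' (inf_le_right : f.ker ⊓ stabilizer _ (none : Option (α ⊕ B)) ≤ _)
  rw [inf_relIndex_right, h2, ((Nat.dvd_prime Nat.prime_two).1 ((relIndex_dvd_index_of_normal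
    f.ker _).trans h8.dvd)).resolve_left fun h => absurd (h7.symm.trans
      (MonoidHom.mem_ker.1 (relIndex_eq_one.1 h h6))) (by decide)] at h10
  have h11 := eq_of_le_of_card_ge h9 (by rw [card_map_of_injective psi_inj, h5]; omega)
  have e : stabilizer f.ker (none : Option (α ⊕ B)) ≃* M :=
    ((MulEquiv.subgroupCongr (inf_subgroupOf_left _ _).symm).trans
      (subgroupOfEquivOfLe inf_le_left)).trans ((MulEquiv.subgroupCongr h11.symm).trans
        (M.equivMapOfInjective _ psi_inj).symm)
  have := e.isSimpleGroup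
  have h12 : Nat.card f.ker = 44352000 := by
    have := f.ker.index_mul_card
    rw [h8] at this
    omega
  refine ⟨f.ker, simple_of_fix h1 h12 none ((Nat.card_congr e.toEquiv).trans h5) fun x hx h w hw => ?_,
    h12⟩
  obtain ⟨s, hs⟩ := psi_range.ge (show x.1 ∈ _ from hx)
  exact fix11 hα hB (s := s) (by rw [← orderOf_injective _ psi_inj, hs, orderOf_coe, h]) (hs ▸ hw)

end CfsgLib.Steiner.HS
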