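import Mathlib
import Cfsg.Agent.Lib.Steiner.U22
import Cfsg.Agent.Lib.Steiner.Aut
import Cfsg.Agent.Lib.Golay.Steiner
import Cfsg.Agent.S0428

/-! Strongly regular graphs with parameters (100,22,0,6): every such graph is the point-block
graph of an S(3,6,22), with any vertex as the extra vertex. -/

set_option autoImplicit false
set_option linter.unusedSectionVars false

namespace CfsgLib.Steiner.HS

open Cfsg Finset SimpleGraph CfsgLib.Steiner Cfsg.Agent.S0428

section SRG
variable {V : Type*} [Fintype V] [DecidableEq V] {G : SimpleGraph V} [DecidableRel G.Adj]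

theorem card_common (v w : V) : Fintype.card (G.commonNeighbors v w) =
    #(univ.filter fun x => G.Adj v x ∧ G.Adj w x) := by
  rw [← Set.toFinset_card]
  congr 1
  ext d
  simp [SimpleGraph.mem_commonNeighbors]

theorem deg {n k l m : ℕ} (hG : G.IsSRGWith n k l m) (v : V) :
    #(univ.filter fun x => G.Adj v x) = k := by
  rw [← hG.regular v, ← card_neighborFinset_eq_degree, neighborFinset_eq_filter]

theorem no_tri {n k m : ℕ} (hG : G.IsSRGWith n k 0 m) {u v w : V} (h : G.Adj u v) (h1 : G.Adj u w)
    (h2 : G.Adj v w) : False := by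
  have := hG.of_adj u v h
  rw [card_common, card_eq_zero, filter_eq_empty_iff] at this
  exact this (mem_univ w) ⟨h1, h2⟩

theorem com {n k l m : ℕ} (hG : G.IsSRGWith n k l m) {u v : V} (h : u ≠ v) (h' : ¬ G.Adj u v) :
    #(univ.filter fun x => G.Adj u x ∧ G.Adj v x) = m := by
  rw [← card_common]; exact hG.of_not_adj h h'

/-- first and second moments of the number of neighbours inside a coclique -/
theorem moments {n k l m : ℕ} (hG : G.IsSRGWith n k l m) (A : Finset V)
    (hA : ∀ a ∈ A, ∀ b ∈ A, ¬ G.Adj a b) :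
    ∑ u, #(A.filter fun a => G.Adj a u) = #A * k ∧
    ∑ u, #(A.filter fun a => G.Adj a u) ^ 2 = #A * k + #A * (#A - 1) * m := by
  constructor
  · simp only [card_filter]
    rw [sum_comm, ← smul_eq_mul, ← sum_const]
    refine sum_congr rfl fun a _ => ?_
    rw [← card_filter, deg hG]
  · have h1 : ∀ u, #(A.filter fun a => G.Adj a u) ^ 2 =
        ∑ a ∈ A, ∑ b ∈ A, if G.Adj a u ∧ G.Adj b u then 1 else 0 := by
      intro u
      rw [sq, card_filter, sum_mul_sum]
      refine sum_congr rfl fun a _ => sum_congr rfl fun b _ => ?_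
      by_cases h : G.Adj a u <;> by_cases h' : G.Adj b u <;> simp [h, h']
    simp only [h1]
    rw [sum_comm]
    have h2 : ∀ a ∈ A, (∑ u, ∑ b ∈ A, if G.Adj a u ∧ G.Adj b u then 1 else 0) =
        k + (#A - 1) * m := by
      intro a ha
      rw [sum_comm, ← add_sum_erase _ _ ha, ← card_erase_of_mem ha, ← smul_eq_mul, ← sum_const]
      congr 1
      · simp only [and_self]
        rw [← card_filter, deg hG]
      · refine sum_congr rfl fun b hb => ?_
        rw [← card_filter, com hG (ne_of_mem_erase hb).symm (hA a ha b (mem_of_mem_erase hb))]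
    rw [sum_congr rfl h2, sum_const, smul_eq_mul]
    ring

theorem inter_two (hG : G.IsSRGWith 100 22 0 6) {v w u : V} (hvw : v ≠ w) (hvw' : ¬ G.Adj v w)
    (hvu : v ≠ u) (hvu' : ¬ G.Adj v u) (hwu : w ≠ u) (hwu' : ¬ G.Adj w u) :
    #(univ.filter fun x => G.Adj v x ∧ G.Adj w x ∧ G.Adj u x) = 2 := by
  set A := univ.filter fun x => G.Adj v x ∧ G.Adj w x with hA
  have hA6 : #A = 6 := com hG hvw hvw'
  have hmem : ∀ a, a ∈ A ↔ G.Adj v a ∧ G.Adj w a := by intro a; simp [hA]
  obtain ⟨m1, m2⟩ := moments hG A fun a ha b hb h =>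
    no_tri hG ((hmem a).1 ha).1 ((hmem b).1 hb).1 h
  rw [hA6] at m1 m2
  set x : V → ℕ := fun u => #(A.filter fun a => G.Adj a u) with hx
  have tot : ∑ u, ((x u : ℤ) - 2) ^ 2 = 184 := by
    have e : ∀ u, ((x u : ℤ) - 2) ^ 2 = ((x u ^ 2 : ℕ) : ℤ) - 4 * (x u : ℕ) + 4 := by
      intro u; push_cast; ring
    simp only [e]
    rw [sum_add_distrib, sum_sub_distrib, ← mul_sum, ← Nat.cast_sum, ← Nat.cast_sum, m1, m2,
      sum_const, card_univ, hG.card]
    norm_num
  set N := univ.filter fun y => G.Adj v y ∨ G.Adj w y with hN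
  have hN38 : #N = 38 := by
    have h1 := card_union_add_card_inter (univ.filter fun y => G.Adj v y)
      (univ.filter fun y => G.Adj w y)
    rw [← filter_or, ← filter_and, deg hG, deg hG, ← hN, ← hA, hA6] at h1
    omega
  have hxN : ∀ y ∈ N, ((x y : ℤ) - 2) ^ 2 = 4 := by
    intro y hy
    have : x y = 0 := by
      simp only [hx, card_eq_zero, filter_eq_empty_iff]
      intro a ha h
      rcases (mem_filter.1 hy).2 with h' | h'
      · exact no_tri hG ((hmem a).1 ha).1 h' h
      · exact no_tri hG ((hmem a).1 ha).2 h' h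
    rw [this]; norm_num
  have hxv : x v = 6 := by
    simp only [hx]
    rw [filter_true_of_mem fun a ha => ((hmem a).1 ha).1.symm, hA6]
  have hxw : x w = 6 := by
    simp only [hx]
    rw [filter_true_of_mem fun a ha => ((hmem a).1 ha).2.symm, hA6]
  have hvN : v ∉ N := by
    simp only [hN, mem_filter, not_and, not_or]
    exact fun _ => ⟨G.irrefl, fun h => hvw' h.symm⟩
  have hwN : w ∉ N := by
    simp only [hN, mem_filter, not_and, not_or]
    exact fun _ => ⟨hvw', G.irrefl⟩
  have huN : u ∉ N := by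
    simp only [hN, mem_filter, not_and, not_or]
    exact fun _ => ⟨hvu', hwu'⟩
  have hle : ∑ y ∈ insert u (insert v (insert w N)), ((x y : ℤ) - 2) ^ 2 ≤ 184 := by
    rw [← tot]
    exact sum_le_sum_of_subset_of_nonneg (subset_univ _) fun _ _ _ => sq_nonneg _
  rw [sum_insert (by simp [huN, hvu.symm, hwu.symm]), sum_insert (by simp [hvN, hvw]),
    sum_insert hwN, sum_congr rfl hxN, sum_const, hN38, hxv, hxw] at hle
  have : x u = 2 := by
    have h0 : ((x u : ℤ) - 2) ^ 2 = 0 := le_antisymm (by norm_num at hle ⊢; linarith) (sq_nonneg _)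
    have := pow_eq_zero_iff (two_ne_zero) |>.1 h0
    omega
  rw [← this]
  simp only [hx, hA, filter_filter]
  congr 1
  ext y
  simp [and_assoc, G.adj_comm y u]

/-- the neighbours of `w` among the neighbours of `v` -/
def blk (G : SimpleGraph V) [DecidableRel G.Adj] (v w : V) : Finset (G.neighborSet v) :=
  univ.filter fun p => G.Adj w p

theorem mem_blk {v w : V} {p : G.neighborSet v} : p ∈ blk G v w ↔ G.Adj w p := by simp [blk]

theorem card_filter_nbr (v : V) (q : V → Prop) [DecidablePred q] :
    #((univ : Finset (G.neighborSet v)).filter fun p : G.neighborSet v => q p) =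
      #(univ.filter fun x => G.Adj v x ∧ q x) := by
  rw [← card_map (Function.Embedding.subtype _)]
  congr 1
  ext x
  simp only [mem_map, mem_filter, mem_univ, true_and, Function.Embedding.coe_subtype]
  exact ⟨fun ⟨p, h1, h2⟩ => h2 ▸ ⟨p.2, h1⟩, fun h => ⟨⟨x, h.1⟩, h.2, rfl⟩⟩

/-- the local design at `v` -/
def design (G : SimpleGraph V) [DecidableRel G.Adj] (v : V) : Set (Finset (G.neighborSet v)) :=
  blk G v '' {w | v ≠ w ∧ ¬ G.Adj v w}

theorem card_blk (hG : G.IsSRGWith 100 22 0 6) {v w : V} (h : v ≠ w) (h' : ¬ G.Adj v w) :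
    #(blk G v w) = 6 := by
  rw [blk, card_filter_nbr v (fun x => G.Adj w x), com hG h h']

theorem blk_inter (v w u : V) : #(blk G v w ∩ blk G v u) =
    #(univ.filter fun x => G.Adj v x ∧ G.Adj w x ∧ G.Adj u x) := by
  rw [blk, blk, ← filter_and, card_filter_nbr v (fun x => G.Adj w x ∧ G.Adj u x)]

theorem blk_disjoint_iff (hG : G.IsSRGWith 100 22 0 6) {v w u : V} (h : v ≠ w) (h' : ¬ G.Adj v w)
    (h1 : v ≠ u) (h1' : ¬ G.Adj v u) : Disjoint (blk G v w) (blk G v u) ↔ G.Adj w u := by
  constructor
  · intro hd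
    by_contra hn
    have h0 : #(blk G v w ∩ blk G v u) = 0 := by rw [disjoint_iff_inter_eq_empty.1 hd]; rfl
    by_cases e : w = u
    · subst e
      rw [inter_self, card_blk hG h h'] at h0
      omega
    · rw [blk_inter, inter_two hG h h' h1 h1' e hn] at h0
      omega
  · intro ha
    rw [Finset.disjoint_left]
    intro p hp hq
    exact no_tri hG ha (mem_blk.1 hp) (mem_blk.1 hq)

theorem blk_inter_le (hG : G.IsSRGWith 100 22 0 6) {v w u : V} (h : v ≠ w) (h' : ¬ G.Adj v w)
    (h1 : v ≠ u) (h1' : ¬ G.Adj v u) (e : w ≠ u) : #(blk G v w ∩ blk G v u) ≤ 2 := by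
  by_cases hn : G.Adj w u
  · rw [disjoint_iff_inter_eq_empty.1 ((blk_disjoint_iff hG h h' h1 h1').2 hn)]; simp
  · rw [blk_inter, inter_two hG h h' h1 h1' e hn]

theorem blk_injOn (hG : G.IsSRGWith 100 22 0 6) (v : V) :
    Set.InjOn (blk G v) {w | v ≠ w ∧ ¬ G.Adj v w} := by
  intro w hw u hu e
  by_contra hne
  have := blk_inter_le hG hw.1 hw.2 hu.1 hu.2 hne
  rw [e, inter_self, card_blk hG hu.1 hu.2] at this
  omega

theorem card_nbr (hG : G.IsSRGWith 100 22 0 6) (v : V) : Fintype.card (G.neighborSet v) = 22 := by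
  rw [card_neighborSet_eq_degree, hG.regular v]

theorem design_steiner (hG : G.IsSRGWith 100 22 0 6) (v : V) :
    IsSteinerSystem 3 6 (design G v) := by
  apply CfsgLib.Golay.isSteinerSystem_of_card
  · rintro _ ⟨w, hw, rfl⟩; exact card_blk hG hw.1 hw.2
  · rintro _ ⟨w, hw, rfl⟩ _ ⟨u, hu, rfl⟩ h3
    by_contra hne
    have := blk_inter_le hG hw.1 hw.2 hu.1 hu.2 (fun e => hne (by rw [e]))
    omega
  · rw [design, (blk_injOn hG v).ncard_image, card_nbr hG]
    have h1 : {w | v ≠ w ∧ ¬ G.Adj v w} = ((insert v (univ.filter fun x => G.Adj v x))ᶜ : Finset V) := by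
      ext w; simp [eq_comm, and_comm]
    rw [h1, Set.ncard_coe_finset, card_compl, card_insert_of_notMem (by simp), deg hG, hG.card]
    decide

/-- the vertex attached to a block of the local design -/
noncomputable def vtx (G : SimpleGraph V) [DecidableRel G.Adj] (v : V) (b : design G v) : V :=
  b.2.choose

theorem vtx_spec (v : V) (b : design G v) :
    (v ≠ vtx G v b ∧ ¬ G.Adj v (vtx G v b)) ∧ blk G v (vtx G v b) = b := b.2.choose_spec

/-- the map from the point-block graph of the local design -/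
noncomputable def toV (G : SimpleGraph V) [DecidableRel G.Adj] (v : V) :
    Option (G.neighborSet v ⊕ design G v) → V :=
  fun x => x.elim v (Sum.elim (fun p => (p : V)) (vtx G v))

theorem toV_bijective (hG : G.IsSRGWith 100 22 0 6) (v : V) : Function.Bijective (toV G v) := by
  constructor
  · rintro (_ | p | b) (_ | q | c) h
    · rfl
    · exact absurd h (G.ne_of_adj q.2)
    · exact absurd h (vtx_spec v c).1.1
    · exact absurd h.symm (G.ne_of_adj p.2)
    · rw [Subtype.ext h]
    · exact absurd (show G.Adj v (vtx G v c) from (show (p : V) = vtx G v c from h) ▸ p.2)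
        (vtx_spec v c).1.2
    · exact absurd h.symm (vtx_spec v b).1.1
    · exact absurd (show G.Adj v (vtx G v b) from (show (q : V) = vtx G v b from h.symm) ▸ q.2)
        (vtx_spec v b).1.2
    · have : b = c := Subtype.ext (by
        rw [← (vtx_spec v b).2, ← (vtx_spec v c).2, show vtx G v b = vtx G v c from h])
      rw [this]
  · intro w
    by_cases h : v = w
    · exact ⟨none, h⟩
    by_cases h' : G.Adj v w
    · exact ⟨some (Sum.inl ⟨w, h'⟩), rfl⟩
    · refine ⟨some (Sum.inr ⟨blk G v w, w, ⟨h, h'⟩, rfl⟩), ?_⟩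
      exact blk_injOn hG v (vtx_spec v _).1 ⟨h, h'⟩ (vtx_spec v _).2

theorem toV_adj (hG : G.IsSRGWith 100 22 0 6) (v : V) (x y : Option (G.neighborSet v ⊕ design G v)) :
    G.Adj (toV G v x) (toV G v y) ↔ (pointBlockGraph (design G v)).Adj x y := by
  have hpb : ∀ (p : G.neighborSet v) (b : design G v), G.Adj (vtx G v b) p ↔ p ∈ (b : Finset _) := by
    intro p b
    rw [← mem_blk (v := v), (vtx_spec v b).2]
  rcases x with _ | p | b <;> rcases y with _ | q | c
  · exact iff_of_false G.irrefl adj_nn
  · exact iff_of_true q.2 (adj_np _)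
  · exact iff_of_false (vtx_spec v c).1.2 (adj_nb _)
  · exact iff_of_true (G.adj_symm p.2) (adj_pn _)
  · exact iff_of_false (no_tri hG p.2 q.2) (adj_pp _ _)
  · rw [adj_pb, ← hpb]; exact G.adj_comm _ _
  · exact iff_of_false (fun h => (vtx_spec v b).1.2 h.symm) (adj_bn _)
  · rw [adj_bp, ← hpb]; rfl
  · rw [adj_bb (design_steiner hG v), ← (vtx_spec v b).2, ← (vtx_spec v c).2,
      blk_disjoint_iff hG (vtx_spec v c).1.1 (vtx_spec v c).1.2 (vtx_spec v b).1.1
        (vtx_spec v b).1.2]
    exact G.adj_comm _ _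

/-- the point-block graph of the local design is isomorphic to `G` -/
noncomputable def localIso (hG : G.IsSRGWith 100 22 0 6) (v : V) :
    pointBlockGraph (design G v) ≃g G :=
  ⟨Equiv.ofBijective _ (toV_bijective hG v), fun {x y} => toV_adj hG v x y⟩

theorem localIso_none (hG : G.IsSRGWith 100 22 0 6) (v : V) : localIso hG v none = v := rfl

end SRG

section Iso
variable {α β : Type*} [DecidableEq α] [DecidableEq β] {B : Set (Finset α)} {C : Set (Finset β)}

/-- the bijection of blocks induced by an isomorphism of set systems -/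
def blockEquiv (e : α ≃ β) (h : (fun b => b.image e) '' B = C) : B ≃ C where
  toFun b := ⟨(b : Finset α).image e, h ▸ ⟨b, b.2, rfl⟩⟩
  invFun c := ⟨(c : Finset β).image e.symm, by
    obtain ⟨c, hc⟩ := c
    obtain ⟨b, hb, rfl⟩ := h.symm ▸ hc
    simpa [image_image] using hb⟩
  left_inv b := Subtype.ext (by simp [image_image])
  right_inv c := Subtype.ext (by simp [image_image])

theorem coe_blockEquiv (e : α ≃ β) (h : (fun b => b.image e) '' B = C) (b : B) :
    (blockEquiv e h b : Finset β) = (b : Finset α).image e := rfl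

theorem rel_iff (e : α ≃ β) (h : (fun b => b.image e) '' B = C) (x y : Option (α ⊕ B)) :
    pointBlockRel C ((e.sumCongr (blockEquiv e h)).optionCongr x)
      ((e.sumCongr (blockEquiv e h)).optionCongr y) ↔ pointBlockRel B x y := by
  rcases x with _ | p | b <;> rcases y with _ | q | c
  all_goals first
    | exact Iff.rfl
    | exact e.injective.mem_finset_image
    | exact disjoint_image e.injective

/-- isomorphic set systems have isomorphic point-block graphs -/
def pbIso (e : α ≃ β) (h : (fun b => b.image e) '' B = C) :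
    pointBlockGraph B ≃g pointBlockGraph C :=
  ⟨(e.sumCongr (blockEquiv e h)).optionCongr, fun {x y} => by
    rw [adj_iff', adj_iff', rel_iff, rel_iff, (Equiv.injective _).ne_iff]⟩

theorem pbIso_none (e : α ≃ β) (h : (fun b => b.image e) '' B = C) : pbIso e h none = none := rfl
theorem pbIso_inl (e : α ≃ β) (h : (fun b => b.image e) '' B = C) (a : α) :
    pbIso e h (some (Sum.inl a)) = some (Sum.inl (e a)) := rfl
theorem pbIso_inr (e : α ≃ β) (h : (fun b => b.image e) '' B = C) (b : B) :
    pbIso e h (some (Sum.inr b)) = some (Sum.inr (blockEquiv e h b)) := rfl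

end Iso

/-- uniqueness of the (100,22,0,6) graph with a prescribed image of one vertex -/
theorem exists_iso {V W : Type*} [Fintype V] [Fintype W] {G : SimpleGraph V} {H : SimpleGraph W}
    [DecidableRel G.Adj] [DecidableRel H.Adj] (hG : G.IsSRGWith 100 22 0 6)
    (hH : H.IsSRGWith 100 22 0 6) (v : V) (w : W) : ∃ φ : G ≃g H, φ v = w := by
  classical
  obtain ⟨e, he⟩ := iso22 (card_nbr hG v) (card_nbr hH w) (design_steiner hG v) (design_steiner hH w)
  refine ⟨((localIso hG v).symm.trans (pbIso e he)).trans (localIso hH w), ?_⟩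
  have : (localIso hG v).symm v = none := by
    rw [RelIso.symm_apply_eq]; rfl
  show localIso hH w (pbIso e he ((localIso hG v).symm v)) = w
  rw [this]; rfl

end CfsgLib.Steiner.HS
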